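import Cfsg.Agent.H507.DPi

/-!
# Quotients of `D_π`-groups are `D_π`-groups (minimal supplements)
-/

set_option autoImplicit false
set_option linter.unusedSectionVars false

namespace Cfsg.Agent.H469.PiBS

open Cfsg Subgroup Cfsg.Agent.H506.PiHomog Cfsg.Agent.H507.DPi

/-- A π-subgroup of a quotient is the image of a π-subgroup. -/
theorem exists_lift {π : Set ℕ} {G : Type*} [Group G] [Finite G] (N : Subgroup G) [N.Normal]
    (K : Subgroup (G ⧸ N)) (hK : PiNum π (Nat.card K)) :
    ∃ U : Subgroup G, PiNum π (Nat.card U) ∧ U.map (QuotientGroup.mk' N) = K := by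
  set f := QuotientGroup.mk' N with hf
  obtain ⟨U, hU, hmin⟩ := (Set.toFinite {U : Subgroup G | U.map f = K}).exists_minimal
    ⟨K.comap f, Subgroup.map_comap_eq_self_of_surjective (QuotientGroup.mk'_surjective N) K⟩
  have hU' : U.map f = K := hU
  have hmin' : ∀ V : Subgroup G, V ≤ U → V.map f = K → V = U := fun V hV hVK => le_antisymm hV (hmin hVK hV)
  refine ⟨U, ?_, hU'⟩
  intro p hp hd
  by_contra hpi
  have hpf : Fact p.Prime := ⟨hp⟩
  have hNn : (N.subgroupOf U).Normal := inferInstance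
  -- a subgroup of `U` supplementing `N ∩ U` is `U`
  have hsup : ∀ V : Subgroup U, V ⊔ N.subgroupOf U = ⊤ → V = ⊤ := by
    intro V hV
    have h1 : (V.map U.subtype).map f = K := by
      rw [← hU']
      apply le_antisymm (Subgroup.map_mono (Subgroup.map_subtype_le V))
      rintro _ ⟨u, hu, rfl⟩
      have h2 : (⟨u, hu⟩ : U) ∈ V ⊔ N.subgroupOf U := by rw [hV]; exact mem_top _
      have h3 : (⟨u, hu⟩ : U) ∈ ((V ⊔ N.subgroupOf U : Subgroup U) : Set U) := h2
      rw [Subgroup.mul_normal] at h3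
      obtain ⟨v, hv, n, hn, hvn⟩ := h3
      have h4 : (v : G) * (n : G) = u := congrArg Subtype.val hvn
      refine ⟨v, ⟨v, hv, rfl⟩, ?_⟩
      rw [← h4, map_mul]
      have h5 : f (n : G) = 1 := (QuotientGroup.eq_one_iff _).2 (mem_subgroupOf.1 hn)
      rw [h5, mul_one]
    have h2 := hmin' _ (Subgroup.map_subtype_le V) h1
    rw [eq_top_iff]
    intro u _
    have h3 : (u : G) ∈ V.map U.subtype := by rw [h2]; exact u.2
    obtain ⟨v, hv, hvu⟩ := h3
    rwa [← Subtype.ext (hvu : (v : G) = u)]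
  let P : Sylow p U := default
  have hPN : (P : Subgroup U) ≤ N.subgroupOf U := by
    intro y hy
    rw [mem_subgroupOf, ← QuotientGroup.eq_one_iff]
    change f (y : G) = 1
    have h1 : f (y : G) ∈ K := by rw [← hU']; exact ⟨y, y.2, rfl⟩
    by_contra hne
    obtain ⟨k, hk⟩ := P.2 ⟨y, hy⟩
    have hk' : (y : G) ^ p ^ k = 1 := by
      have := congrArg Subtype.val (congrArg Subtype.val hk)
      exact this
    have h2 : orderOf (f (y : G)) ∣ p ^ k := orderOf_dvd_of_pow_eq_one (by rw [← map_pow, hk', map_one])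
    have h3 : orderOf (f (y : G)) ≠ 1 := fun h => hne (orderOf_eq_one_iff.1 h)
    obtain ⟨q, hq, hqd⟩ := Nat.exists_prime_and_dvd h3
    have h4 : q = p := (Nat.prime_dvd_prime_iff_eq hq hp).1 (hq.dvd_of_dvd_pow (hqd.trans h2))
    subst h4
    exact hpi (hK q hp (hqd.trans (Subgroup.orderOf_dvd_natCard K h1)))
  have hPn : (P : Subgroup U).Normal := by
    rw [← normalizer_eq_top_iff]
    exact hsup _ (P.normalizer_sup_eq_top' hPN)
  have hcop : (Nat.card (P : Subgroup U)).Coprime (P : Subgroup U).index := by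
    obtain ⟨n, hn⟩ := IsPGroup.iff_card.mp P.2
    rw [hn]
    exact Nat.Coprime.pow_left n ((Nat.Prime.coprime_iff_not_dvd hp).2 P.not_dvd_index)
  obtain ⟨C, hC⟩ := Subgroup.exists_right_complement'_of_coprime hcop
  have hCt : C = ⊤ := by
    apply hsup
    rw [eq_top_iff, ← hC.sup_eq_top, sup_comm]
    exact sup_le_sup le_rfl hPN
  have h5 := hC.card_mul
  rw [hCt, Subgroup.card_top] at h5
  have h6 : Nat.card (P : Subgroup U) = 1 := by
    have h7 : 0 < Nat.card U := Nat.card_pos
    nlinarith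
  have h8 : p ∣ Nat.card (P : Subgroup U) := P.dvd_card_of_dvd_card hd
  rw [h6] at h8
  exact hp.one_lt.ne' (Nat.dvd_one.1 h8)

/-- **Quotients of `D_π`-groups are `D_π`-groups.** -/
theorem DPi_quotient {π : Set ℕ} {G : Type*} [Group G] [Finite G] (h : DPi π G) (N : Subgroup G) [N.Normal] :
    DPi π (G ⧸ N) :=
  h.quotient_of_lift N fun K hK => exists_lift N K hK

end Cfsg.Agent.H469.PiBS
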