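import Cfsg.Agent.H469.PiBS.Prod
import Cfsg.Agent.H469.PiBS.QuotD
import Cfsg.Agent.H469.PiBS.Def
import Cfsg.Agent.H470.SolvPi

/-!
# The simple factors of a minimal normal subgroup of a `D_π`-group (PIBS)
-/

set_option autoImplicit false
set_option linter.unusedSectionVars false

namespace Cfsg.Agent.H469.PiBS

open Cfsg Subgroup Cfsg.Agent.Lib.MinNormalNonabelian Cfsg.Agent.Lib.MinNormal Cfsg.Agent.H506.PiHomog
  Cfsg.Agent.H507.DPi

universe u

variable {π : Set ℕ} {G : Type u} [Group G] [Finite G]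

theorem conj_normal_eq (N : Subgroup G) [N.Normal] (g : G) : N.map (MulAut.conj g).toMonoidHom = N :=
  map_conj_normal g N

theorem mcc (g h : G) (T : Subgroup G) : (T.map (MulAut.conj h).toMonoidHom).map (MulAut.conj g).toMonoidHom =
    T.map (MulAut.conj (g * h)).toMonoidHom := Cfsg.Agent.Lib.MinNormal.map_conj_map_conj g h T

/-- `G` is transitive on the Hall π-subgroups of a normal subgroup. -/
theorem trans_hallOf {M0 : Subgroup G} (hM : DHall π M0) (N : Subgroup G) [N.Normal] {K : Subgroup G}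
    (hK : IsPiHallOf π K N) : ∃ g : G, K.map (MulAut.conj g).toMonoidHom = M0 ⊓ N := by
  obtain ⟨g, hg⟩ := hM.dom K hK.2.1
  have h1 := hallOf_map hK g
  rw [conj_normal_eq N] at h1
  exact ⟨g, hallOf_eq h1 (le_inf hg h1.1) inf_le_right fun p hp hd =>
    hM.card p hp (hd.trans (card_dvd_of_le inf_le_left))⟩

theorem isPiHallOf_inf {M0 : Subgroup G} (hM : DHall π M0) (N : Subgroup G) [N.Normal] :
    IsPiHallOf π (M0 ⊓ N) N := by
  refine ⟨inf_le_right, fun p hp hd => hM.card p hp (hd.trans (card_dvd_of_le inf_le_left)), fun p hp hpi hd => ?_⟩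
  rw [inf_relIndex_right] at hd
  exact hM.index p hp (hd.trans ⟨_, (relIndex_mul_sup_index M0 N).symm⟩) hpi

theorem trans_hallOf' {M0 : Subgroup G} (hM : DHall π M0) (N : Subgroup G) [N.Normal] {K K' : Subgroup G}
    (hK : IsPiHallOf π K N) (hK' : IsPiHallOf π K' N) : ∃ g : G, K.map (MulAut.conj g).toMonoidHom = K' := by
  obtain ⟨g, hg⟩ := trans_hallOf hM N hK
  obtain ⟨h, hh⟩ := trans_hallOf hM N hK'
  refine ⟨h⁻¹ * g, ?_⟩
  rw [← mcc, hg, ← hh, mcc, inv_mul_cancel, map_conj_one]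

/-- The number of Hall π-subgroups of a normal subgroup is a π'-number. -/
theorem card_hallOf_normal {M0 : Subgroup G} (hM : DHall π M0) (N : Subgroup G) [N.Normal] {r : ℕ} (hr : r.Prime)
    (hrp : r ∈ π) : ¬ r ∣ Nat.card {K : Subgroup G // IsPiHallOf π K N} := by
  letI : MulAction G {K : Subgroup G // IsPiHallOf π K N} :=
    { smul := fun g K => ⟨K.1.map (MulAut.conj g).toMonoidHom, by
        have h1 := hallOf_map K.2 g
        rwa [conj_normal_eq N] at h1⟩
      one_smul := fun K => Subtype.ext (map_conj_one K.1)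
      mul_smul := fun a b K => Subtype.ext (mcc a b K.1).symm }
  let K0 : {K : Subgroup G // IsPiHallOf π K N} := ⟨M0 ⊓ N, isPiHallOf_inf hM N⟩
  have h1 : M0 ≤ MulAction.stabilizer G K0 := by
    intro m hm
    apply Subtype.ext
    show (M0 ⊓ N).map (MulAut.conj m).toMonoidHom = M0 ⊓ N
    apply le_antisymm
    · rintro _ ⟨y, hy, rfl⟩
      exact ⟨M0.mul_mem (M0.mul_mem hm hy.1) (M0.inv_mem hm), ‹N.Normal›.conj_mem _ hy.2 m⟩
    · intro y hy
      refine ⟨m⁻¹ * y * m, ⟨M0.mul_mem (M0.mul_mem (M0.inv_mem hm) hy.1) hm, ?_⟩, ?_⟩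
      · have := ‹N.Normal›.conj_mem _ hy.2 m⁻¹
        rwa [inv_inv] at this
      · show m * (m⁻¹ * y * m) * m⁻¹ = y
        group
  have h2 : MulAction.orbit G K0 = Set.univ := by
    rw [Set.eq_univ_iff_forall]
    intro K
    obtain ⟨g, hg⟩ := trans_hallOf' hM N K0.2 K.2
    exact ⟨g, Subtype.ext hg⟩
  have h3 := MulAction.index_stabilizer G K0
  rw [h2, Set.ncard_univ] at h3
  intro hd
  rw [← h3] at hd
  exact hM.index r hr (hd.trans (index_dvd_of_le h1)) hrp

/-! ### A simple factor -/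

section factor

variable {N : Subgroup G} [N.Normal] (hI : sSupIndep (minSet N)) (hsup : sSup (minSet N) = N)
  (hconj : ∀ S ∈ minSet N, ∀ T ∈ minSet N, ∃ g : G, T = S.map (MulAut.conj g).toMonoidHom)

theorem minSet_comm (hI : sSupIndep (minSet N)) :
    Pairwise fun i j : minSet N => ∀ x y : G, x ∈ (i : Subgroup G) → y ∈ (j : Subgroup G) → Commute x y :=
  fun i j hij _ _ hx hy => commute_of_mem hI (fun _ hS => hS.2.2.1) (fun _ hS => hS.1) i.2 j.2
    (fun h => hij (Subtype.ext h)) hx hy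

theorem minSet_iSup (hsup : sSup (minSet N) = N) : ⨆ i : minSet N, (i : Subgroup G) = N := by
  rw [← sSup_eq_iSup', hsup]

theorem minSet_indep (hI : sSupIndep (minSet N)) : iSupIndep fun i : minSet N => (i : Subgroup G) :=
  (sSupIndep_iff _).1 hI

include hI hsup

/-- (C) -/
theorem card_hallOf_factor {M0 : Subgroup G} (hM : DHall π M0) {S : Subgroup G} (hS : S ∈ minSet N) {r : ℕ}
    (hr : r.Prime) (hrp : r ∈ π) : ¬ r ∣ Nat.card {K : Subgroup G // IsPiHallOf π K S} := by
  classical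
  have : Finite (minSet N) := Set.toFinite (minSet N) |>.to_subtype
  cases nonempty_fintype (minSet N)
  intro hd
  refine card_hallOf_normal hM N hr hrp ?_
  rw [card_hallOf (minSet_comm hI) (minSet_indep hI) (minSet_iSup hsup) (fun i => i.2.2.2.1),
    finprod_eq_prod_of_fintype]
  exact hd.trans (Finset.dvd_prod_of_mem (fun i : minSet N => Nat.card {K : Subgroup G // IsPiHallOf π K (i : Subgroup G)})
    (Finset.mem_univ (⟨S, hS⟩ : minSet N)))

include hconj

/-- (T) -/
theorem trans_hallOf_factor {M0 : Subgroup G} (hM : DHall π M0) {S : Subgroup G} (hS : S ∈ minSet N)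
    {H H' : Subgroup G} (hH : IsPiHallOf π H S) (hH' : IsPiHallOf π H' S) :
    ∃ n : G, S.map (MulAut.conj n).toMonoidHom = S ∧ H.map (MulAut.conj n).toMonoidHom = H' := by
  have : Finite (minSet N) := Set.toFinite (minSet N) |>.to_subtype
  choose! c hc using fun T : minSet N => hconj S hS T T.2
  have hf : ∀ i : minSet N, IsPiHallOf π (H.map (MulAut.conj (c i)).toMonoidHom) (i : Subgroup G) := by
    intro i
    have h1 := hallOf_map hH (c i)
    rwa [← hc i] at h1
  have hf' : ∀ i : minSet N, IsPiHallOf π (H'.map (MulAut.conj (c i)).toMonoidHom) (i : Subgroup G) := by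
    intro i
    have h1 := hallOf_map hH' (c i)
    rwa [← hc i] at h1
  have hK := hallOf_iSup (minSet_comm hI) (minSet_indep hI) (minSet_iSup hsup) hf
  have hK' := hallOf_iSup (minSet_comm hI) (minSet_indep hI) (minSet_iSup hsup) hf'
  obtain ⟨g, hg⟩ := trans_hallOf' hM N hK hK'
  let s : minSet N := ⟨S, hS⟩
  let t : minSet N := ⟨S.map (MulAut.conj g).toMonoidHom, map_conj_mem_minSet hS g⟩
  have h1 := hallOf_iSup_inf (minSet_comm hI) (minSet_indep hI) (minSet_iSup hsup) hf s
  have h2 := hallOf_iSup_inf (minSet_comm hI) (minSet_indep hI) (minSet_iSup hsup) hf' t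
  have h3 : (H.map (MulAut.conj (c s)).toMonoidHom).map (MulAut.conj g).toMonoidHom =
      H'.map (MulAut.conj (c t)).toMonoidHom := by
    rw [← h1, ← h2, Subgroup.map_inf _ _ _ (MulAut.conj g).injective, hg]
  refine ⟨(c t)⁻¹ * (g * c s), ?_, ?_⟩
  · rw [← mcc, ← mcc, ← hc s]
    show (t : Subgroup G).map _ = S
    rw [hc t, mcc, inv_mul_cancel, map_conj_one]
  · rw [← mcc, ← mcc, h3, mcc, inv_mul_cancel, map_conj_one]

omit hI hsup hconj in
/-- (D) -/
theorem dom_hallOf_factor {M0 : Subgroup G} (hM : DHall π M0) {S : Subgroup G} (hS : S ∈ minSet N) {Y : Subgroup G}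
    (hY : Y ≤ S) (hYp : PiNum π (Nat.card Y)) : ∃ H : Subgroup G, IsPiHallOf π H S ∧ Y ≤ H := by
  obtain ⟨g, hg⟩ := hM.dom Y hYp
  have h1 := isPiHallOf_inf hM N
  have h2 := hallOf_map h1 g⁻¹
  rw [conj_normal_eq N] at h2
  refine ⟨_, hallOf_inf h2 hS.1 hS.2.2.1, le_inf ?_ hY⟩
  have h3 := Subgroup.map_mono (f := (MulAut.conj g⁻¹).toMonoidHom) (show Y.map (MulAut.conj g).toMonoidHom ≤ M0 ⊓ N from
    le_inf hg ((Subgroup.map_mono (hY.trans hS.1)).trans (le_of_eq (conj_normal_eq N g))))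
  rwa [mcc, inv_mul_cancel, map_conj_one] at h3

end factor

end Cfsg.Agent.H469.PiBS
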