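import Cfsg.Agent.Lib.MinNormalNonabelian
import Cfsg.Prelude.Def_OddOrderLocal
import Cfsg.Prelude.Def_HallClasses

/-!
# Hall subgroups of a nonabelian minimal normal subgroup (PIBS)
-/

set_option autoImplicit false
set_option linter.unusedSectionVars false

namespace Cfsg.Agent.H469.PiBS

open Cfsg Subgroup Cfsg.Agent.Lib.MinNormalNonabelian Cfsg.Agent.Lib.MinNormal

variable {π : Set ℕ} {G : Type*} [Group G] [Finite G]

/-! ### Hall subgroups of subgroups -/

theorem relIndex_mul_sup_index (H A : Subgroup G) [A.Normal] : H.relIndex A * (H ⊔ A).index = H.index := by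
  have h1 : (H ⊓ A).relIndex A * A.index = (H ⊓ A).index := relIndex_mul_index inf_le_right
  have h2 : (H ⊓ A).relIndex H * H.index = (H ⊓ A).index := relIndex_mul_index inf_le_left
  have h3 : A.relIndex (H ⊔ A) * (H ⊔ A).index = A.index := relIndex_mul_index le_sup_right
  rw [relIndex_sup_right] at h3
  rw [inf_relIndex_right] at h1
  rw [inf_relIndex_left] at h2
  have h4 : A.relIndex H ≠ 0 := ne_zero_of_dvd_ne_zero Nat.card_pos.ne' (relIndex_dvd_card A H)
  apply Nat.eq_of_mul_eq_mul_left (Nat.pos_of_ne_zero h4)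
  rw [h2, ← h1, ← h3]
  ring

theorem relIndex_dvd_of_norm {K M T : Subgroup G} (hTM : T ≤ M) (hn : M ≤ normalizer (T : Set G)) :
    K.relIndex T ∣ K.relIndex M := by
  have h0 : (T.subgroupOf M).Normal := normal_subgroupOf_of_le_normalizer hn
  have h1 : K.relIndex T = (K.subgroupOf M).relIndex (T.subgroupOf M) := by
    rw [Subgroup.relIndex_subgroupOf hTM]
  rw [h1]
  exact ⟨_, (relIndex_mul_sup_index (K.subgroupOf M) (T.subgroupOf M)).symm⟩

theorem hallOf_card {H M : Subgroup G} (h : H ≤ M) : Nat.card H * H.relIndex M = Nat.card M := by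
  rw [← Subgroup.relIndex_bot_left H, ← Subgroup.relIndex_bot_left M]
  exact Subgroup.relIndex_mul_relIndex ⊥ H M bot_le h

/-- A Hall π-subgroup of `M` meets a normal subgroup of `M` in a Hall π-subgroup. -/
theorem hallOf_inf {K M T : Subgroup G} (hK : IsPiHallOf π K M) (hTM : T ≤ M) (hn : M ≤ normalizer (T : Set G)) :
    IsPiHallOf π (K ⊓ T) T := by
  refine ⟨inf_le_right, fun p hp hd => hK.2.1 p hp (hd.trans (card_dvd_of_le inf_le_left)), fun p hp hpi hd => ?_⟩
  rw [inf_relIndex_right] at hd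
  exact hK.2.2 p hp hpi (hd.trans (relIndex_dvd_of_norm hTM hn))

/-- A Hall π-subgroup is a maximal π-subgroup. -/
theorem hallOf_eq {H K M : Subgroup G} (hH : IsPiHallOf π H M) (hHK : H ≤ K) (hKM : K ≤ M)
    (hK : ∀ p : ℕ, p.Prime → p ∣ Nat.card K → p ∈ π) : H = K := by
  have h1 : H.relIndex K = 1 := by
    by_contra hne
    obtain ⟨p, hp, hpd⟩ := Nat.exists_prime_and_dvd hne
    have h2 : p ∣ Nat.card K := hpd.trans (relIndex_dvd_card H K)
    have h3 : H.relIndex K ∣ H.relIndex M := ⟨_, (relIndex_mul_relIndex H K M hHK hKM).symm⟩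
    exact hH.2.2 p hp (hK p hp h2) (hpd.trans h3)
  exact le_antisymm hHK (relIndex_eq_one.mp h1)

theorem hallOf_map {H M : Subgroup G} (h : IsPiHallOf π H M) (g : G) :
    IsPiHallOf π (H.map (MulAut.conj g).toMonoidHom) (M.map (MulAut.conj g).toMonoidHom) := by
  have hinj := (MulAut.conj g).injective
  refine ⟨Subgroup.map_mono h.1, fun p hp hd => h.2.1 p hp ?_, fun p hp hpi hd => h.2.2 p hp hpi ?_⟩
  · rwa [Subgroup.card_map_of_injective (f := (MulAut.conj g).toMonoidHom) hinj] at hd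
  · rwa [show (H.map (MulAut.conj g).toMonoidHom).relIndex (M.map (MulAut.conj g).toMonoidHom) = H.relIndex M from
      Subgroup.relIndex_map_map_of_injective H M hinj] at hd

/-! ### Direct products -/

section prod

variable {ι : Type*} [Finite ι] {T : ι → Subgroup G} {N : Subgroup G}

theorem card_iSup (hcomm : Pairwise fun i j : ι => ∀ x y : G, x ∈ T i → y ∈ T j → Commute x y)
    (hind : iSupIndep T) : Nat.card (⨆ i, T i : Subgroup G) = ∏ᶠ i, Nat.card (T i) := by
  cases nonempty_fintype ι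
  obtain ⟨e⟩ := mulEquiv_pi_of_iSupIndep T hcomm hind rfl
  rw [Nat.card_congr e.toEquiv, Nat.card_pi, finprod_eq_prod_of_fintype]

variable (hcomm : Pairwise fun i j : ι => ∀ x y : G, x ∈ T i → y ∈ T j → Commute x y)
  (hind : iSupIndep T) (hN : ⨆ i, T i = N)

include hcomm hind hN

theorem hallOf_iSup {f : ι → Subgroup G} (hf : ∀ i, IsPiHallOf π (f i) (T i)) : IsPiHallOf π (⨆ i, f i) N := by
  cases nonempty_fintype ι
  have hle : ∀ i, f i ≤ T i := fun i => (hf i).1
  have hc' : Pairwise fun i j : ι => ∀ x y : G, x ∈ f i → y ∈ f j → Commute x y :=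
    fun i j hij x y hx hy => hcomm hij x y (hle i hx) (hle j hy)
  have hi' : iSupIndep f := hind.mono hle
  have h1 := card_iSup hc' hi'
  have h2 := card_iSup hcomm hind
  rw [finprod_eq_prod_of_fintype] at h1 h2
  have hfN : (⨆ i, f i) ≤ N := hN ▸ iSup_mono hle
  have h3 := hallOf_card hfN
  have h4 : (⨆ i, f i : Subgroup G).relIndex N = ∏ i, (f i).relIndex (T i) := by
    apply Nat.eq_of_mul_eq_mul_left (Nat.card_pos (α := (⨆ i, f i : Subgroup G)))
    rw [h3, h1, ← Finset.prod_mul_distrib, ← hN, h2]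
    exact Finset.prod_congr rfl fun i _ => (hallOf_card (hle i)).symm
  refine ⟨hfN, fun p hp hd => ?_, fun p hp hpi hd => ?_⟩
  · rw [h1] at hd
    obtain ⟨i, -, hi⟩ := (Prime.dvd_finset_prod_iff hp.prime _).1 hd
    exact (hf i).2.1 p hp hi
  · rw [h4] at hd
    obtain ⟨i, -, hi⟩ := (Prime.dvd_finset_prod_iff hp.prime _).1 hd
    exact (hf i).2.2 p hp hpi hi

theorem hallOf_iSup_inf {f : ι → Subgroup G} (hf : ∀ i, IsPiHallOf π (f i) (T i)) (j : ι) :
    (⨆ i, f i) ⊓ T j = f j := by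
  have h1 := hallOf_iSup hcomm hind hN hf
  refine (hallOf_eq (hf j) (le_inf (le_iSup f j) (hf j).1) inf_le_right fun p hp hd => ?_).symm
  exact h1.2.1 p hp (hd.trans (card_dvd_of_le inf_le_left))

theorem hallOf_eq_iSup (hn : ∀ i, N ≤ normalizer (T i : Set G)) {K : Subgroup G} (hK : IsPiHallOf π K N) :
    ⨆ i, (K ⊓ T i) = K := by
  have hTN : ∀ i, T i ≤ N := fun i => hN ▸ le_iSup T i
  have h1 : IsPiHallOf π (⨆ i, (K ⊓ T i)) N := hallOf_iSup hcomm hind hN fun i => hallOf_inf hK (hTN i) (hn i)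
  exact hallOf_eq h1 (iSup_le fun i => inf_le_left) hK.1 hK.2.1

/-- the Hall π-subgroups of a direct product -/
theorem card_hallOf (hn : ∀ i, N ≤ normalizer (T i : Set G)) :
    Nat.card {K : Subgroup G // IsPiHallOf π K N} = ∏ᶠ i, Nat.card {K : Subgroup G // IsPiHallOf π K (T i)} := by
  cases nonempty_fintype ι
  have hTN : ∀ i, T i ≤ N := fun i => hN ▸ le_iSup T i
  rw [finprod_eq_prod_of_fintype, ← Nat.card_pi]
  exact Nat.card_congr
    { toFun := fun K i => ⟨K.1 ⊓ T i, hallOf_inf K.2 (hTN i) (hn i)⟩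
      invFun := fun f => ⟨⨆ i, (f i).1, hallOf_iSup hcomm hind hN fun i => (f i).2⟩
      left_inv := fun K => Subtype.ext (hallOf_eq_iSup hcomm hind hN hn K.2)
      right_inv := fun f => funext fun j => Subtype.ext (hallOf_iSup_inf hcomm hind hN (fun i => (f i).2) j) }

end prod

end Cfsg.Agent.H469.PiBS
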