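import Cfsg.Agent.H469.PiBS.Comp

/-!
# The reduction of S3876 to the rows (PIBS)

`reduce` : if `Row π S` holds for all nonabelian finite simple groups `S` then the π-Baer–Suzuki theorem holds in all
`D_π`-groups.
-/

set_option autoImplicit false
set_option linter.unusedSectionVars false

namespace Cfsg.Agent.H469.PiBS

open Cfsg Subgroup Cfsg.Agent.Lib.MinNormalNonabelian Cfsg.Agent.Lib.MinNormal Cfsg.Agent.H506.PiHomog
  Cfsg.Agent.H507.DPi Cfsg.Agent.H470.SolvPi

universe u

variable {π : Set ℕ} {G : Type u} [Group G] [Finite G]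

theorem sub_map {S : Subgroup G} (H : Subgroup S) : (H.map S.subtype).subgroupOf S = H :=
  Subgroup.comap_map_eq_self_of_injective S.subtype_injective H

theorem isPiHallOf_map_iff {S : Subgroup G} {H : Subgroup S} :
    IsPiHallOf π (H.map S.subtype) S ↔ IsPiHall π H := by
  have h1 : Nat.card (H.map S.subtype) = Nat.card H := Subgroup.card_map_of_injective S.subtype_injective
  have h2 : (H.map S.subtype).relIndex S = H.index := by
    rw [Subgroup.relIndex, sub_map]
  constructor
  · rintro ⟨-, ha, hb⟩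
    rw [h1] at ha
    rw [h2] at hb
    exact ⟨ha, hb⟩
  · rintro ⟨ha, hb⟩
    refine ⟨Subgroup.map_subtype_le H, ?_, ?_⟩
    · rw [h1]; exact ha
    · rw [h2]; exact hb

theorem isPiHall_subgroupOf_iff {S H : Subgroup G} (hH : H ≤ S) :
    IsPiHall π (H.subgroupOf S) ↔ IsPiHallOf π H S := by
  rw [← isPiHallOf_map_iff, Subgroup.subgroupOf_map_subtype, inf_eq_left.2 hH]

theorem norm_apply {S : Subgroup G} (n : normalizer (S : Set G)) (s : S) :
    ((S.normalizerMonoidHom n s : S) : G) = n * s * (n : G)⁻¹ := rfl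

theorem map_norm {S : Subgroup G} (n : normalizer (S : Set G)) (H : Subgroup S) :
    (H.map (S.normalizerMonoidHom n).toMonoidHom).map S.subtype =
      (H.map S.subtype).map (MulAut.conj (n : G)).toMonoidHom := by
  rw [Subgroup.map_map, Subgroup.map_map]
  rfl

theorem hyp_of_factor {N : Subgroup G} [N.Normal] (hI : sSupIndep (minSet N)) (hsup : sSup (minSet N) = N)
    (hconj : ∀ S ∈ minSet N, ∀ T ∈ minSet N, ∃ g : G, T = S.map (MulAut.conj g).toMonoidHom)
    {M0 : Subgroup G} (hM : DHall π M0) {S : Subgroup G} (hS : S ∈ minSet N) {y : G}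
    (hy : y ∈ normalizer (S : Set G)) (hpy : Pairs π y) {l : ℕ} (hl : l.Prime)
    (hord : orderOf (S.normalizerMonoidHom ⟨y, hy⟩) = l) :
    Hyp π (S.normalizerMonoidHom.range) (S.normalizerMonoidHom ⟨y, hy⟩) l := by
  refine ⟨fun s => ⟨⟨s, le_normalizer s.2⟩, by ext t; rfl⟩, ?_, ?_, ?_, ⟨_, rfl⟩, hl, ?_, hord, ?_⟩
  · intro K hK
    have h1 : PiNum π (Nat.card (K.map S.subtype)) := by
      rw [Subgroup.card_map_of_injective S.subtype_injective]
      exact hK
    obtain ⟨H, hH, hKH⟩ := dom_hallOf_factor hM hS (Subgroup.map_subtype_le K) h1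
    refine ⟨H.subgroupOf S, (isPiHall_subgroupOf_iff hH.1).2 hH, fun k hk => ?_⟩
    exact mem_subgroupOf.2 (hKH ⟨k, hk, rfl⟩)
  · intro H H' hH hH'
    obtain ⟨n, hn, hh⟩ := trans_hallOf_factor hI hsup hconj hM hS (isPiHallOf_map_iff.2 hH) (isPiHallOf_map_iff.2 hH')
    have hn' : n ∈ normalizer (S : Set G) := by
      rw [mem_normalizer_iff]
      intro s
      constructor
      · intro hs
        rw [← hn]
        exact ⟨s, hs, rfl⟩
      · intro hs
        rw [← hn] at hs
        obtain ⟨s', hs', e⟩ := hs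
        have : s' = s := by
          have e' : n * s' * n⁻¹ = n * s * n⁻¹ := e
          simpa using e'
        rwa [← this]
    refine ⟨S.normalizerMonoidHom ⟨n, hn'⟩, ⟨_, rfl⟩, ?_⟩
    apply Subgroup.map_injective S.subtype_injective
    rw [map_norm]
    exact hh
  · intro r hr hrp hd
    refine card_hallOf_factor hI hsup hM hS hr hrp ?_
    have : Nat.card {H : Subgroup S // IsPiHall π H} = Nat.card {K : Subgroup G // IsPiHallOf π K S} :=
      Nat.card_congr
        { toFun := fun H => ⟨H.1.map S.subtype, isPiHallOf_map_iff.2 H.2⟩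
          invFun := fun K => ⟨K.1.subgroupOf S, (isPiHall_subgroupOf_iff K.2.1).2 K.2⟩
          left_inv := fun H => Subtype.ext (sub_map H.1)
          right_inv := fun K => Subtype.ext (by
            show (K.1.subgroupOf S).map S.subtype = K.1
            rw [Subgroup.subgroupOf_map_subtype, inf_eq_left.2 K.2.1]) }
    rwa [← this]
  · have h1 : l ∣ orderOf y := by
      rw [← hord]
      have h2 := orderOf_map_dvd S.normalizerMonoidHom (⟨y, hy⟩ : normalizer (S : Set G))
      rwa [Subgroup.orderOf_mk] at h2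
    refine hpy 1 1 l hl (h1.trans ?_)
    exact Subgroup.orderOf_dvd_natCard _ (subset_closure (by simp))
  · rintro _ ⟨a, rfl⟩ _ ⟨b, rfl⟩ p hp hd
    refine hpy (a : G) (b : G) p hp (hd.trans ?_)
    set C : Subgroup G := closure ({(a : G) * y * (a : G)⁻¹, (b : G) * y * (b : G)⁻¹} : Set G) with hC
    have h2 : Nat.card ↥((C.subgroupOf (normalizer (S : Set G))).map S.normalizerMonoidHom) ∣ Nat.card C :=
      (Subgroup.card_map_dvd _ _).trans (by
        rw [← inf_subgroupOf_right, Nat.card_congr (subgroupOfEquivOfLe inf_le_right).toEquiv]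
        exact Subgroup.card_dvd_of_le inf_le_left)
    refine (Subgroup.card_dvd_of_le ?_).trans h2
    rw [closure_le]
    have key : ∀ c : normalizer (S : Set G), (c : G) * y * (c : G)⁻¹ ∈ C →
        S.normalizerMonoidHom c * S.normalizerMonoidHom ⟨y, hy⟩ * (S.normalizerMonoidHom c)⁻¹ ∈
          (C.subgroupOf (normalizer (S : Set G))).map S.normalizerMonoidHom := by
      intro c hc
      refine ⟨c * ⟨y, hy⟩ * c⁻¹, mem_subgroupOf.2 hc, ?_⟩
      rw [map_mul, map_mul, map_inv]
    rintro _ (rfl | rfl)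
    · exact key a (subset_closure (by simp))
    · exact key b (subset_closure (by simp))

/-- the abelian case (after helper470's `of_solvable`) -/
theorem step_abelian {x : G} (hx : Pairs π x) {p : ℕ} (hp : p.Prime) (hpπ : p ∉ π) {V : Subgroup G} [hVn : V.Normal]
    (hV1 : V ≠ ⊥) (hVN : V ≤ normalClosure ({x} : Set G)) (hVp : IsPGroup p V)
    (hbar : IsPiSubgroup π ((normalClosure ({x} : Set G)).map (QuotientGroup.mk' V))) : False := by
  have hpf : Fact p.Prime := ⟨hp⟩
  set N := normalClosure ({x} : Set G) with hN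
  have hNn : N.Normal := normalClosure_normal
  have hxN : x ∈ N := subset_normalClosure rfl
  have hcV : Nat.card (V.subgroupOf N) = Nat.card V := Nat.card_congr (subgroupOfEquivOfLe hVN).toEquiv
  have hidx : (V.subgroupOf N).index = Nat.card (N.map (QuotientGroup.mk' V)) := by
    have h1 : ((QuotientGroup.mk' V).subgroupMap N).ker = V.subgroupOf N := by
      ext y
      rw [MonoidHom.mem_ker, mem_subgroupOf, ← QuotientGroup.eq_one_iff (N := V) (y : G)]
      exact ⟨fun h => congrArg Subtype.val h, fun h => Subtype.ext h⟩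
    rw [← h1, Subgroup.index_ker, MonoidHom.range_eq_top.2 ((QuotientGroup.mk' V).subgroupMap_surjective N),
      Subgroup.card_top]
  have hpd : ∀ S : Subgroup G, IsPiSubgroup π S → ¬ p ∣ Nat.card S := fun S hS hd => hpπ (hS p hp hd)
  have hcomm : ∀ v ∈ V, x * v = v * x := by
    intro v hv
    have h1 : x * (v * x⁻¹ * v⁻¹) ∈ closure ({1 * x * 1⁻¹, v * x * v⁻¹} : Set G) := by
      refine mul_mem (subset_closure (by simp)) ?_
      have h2 := inv_mem (subset_closure (show v * x * v⁻¹ ∈ ({1 * x * 1⁻¹, v * x * v⁻¹} : Set G) by simp))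
      convert h2 using 1
      group
    have h2 : x * (v * x⁻¹ * v⁻¹) ∈ V := by
      have h3 := mul_mem (hVn.conj_mem v hv x) (inv_mem hv)
      convert h3 using 1
      group
    have h3 : orderOf (x * (v * x⁻¹ * v⁻¹)) ∣ Nat.card ↥(closure ({1 * x * 1⁻¹, v * x * v⁻¹} : Set G)) :=
      Subgroup.orderOf_dvd_natCard _ h1
    have h4 : orderOf (x * (v * x⁻¹ * v⁻¹)) = 1 := by
      obtain ⟨k, hk⟩ := (hVp ⟨_, h2⟩)
      have h5 : (x * (v * x⁻¹ * v⁻¹)) ^ p ^ k = 1 := congrArg Subtype.val hk
      refine Nat.eq_one_of_dvd_coprimes (Nat.Coprime.pow_left k ((Nat.Prime.coprime_iff_not_dvd hp).2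
        (hpd _ (hx 1 v)))) (orderOf_dvd_of_pow_eq_one h5) h3
    rw [orderOf_eq_one_iff] at h4
    calc x * v = (x * (v * x⁻¹ * v⁻¹)) * (v * x) := by group
      _ = v * x := by rw [h4, one_mul]
  have hcen : N ≤ centralizer (V : Set G) := by
    have : (centralizer (V : Set G)).Normal := inferInstance
    refine normalClosure_le_normal ?_
    rw [Set.singleton_subset_iff]
    exact mem_centralizer_iff.2 fun v hv => (hcomm v hv).symm
  have hcop : Nat.Coprime (Nat.card (V.subgroupOf N)) (V.subgroupOf N).index := by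
    rw [hidx, hcV]
    obtain ⟨k, hk⟩ := IsPGroup.iff_card.1 hVp
    rw [hk]
    exact Nat.Coprime.pow_left k ((Nat.Prime.coprime_iff_not_dvd hp).2 fun hd => hpπ (hbar p hp hd))
  obtain ⟨H, hH⟩ := Subgroup.exists_right_complement'_of_coprime hcop
  have hkey : ∀ y : N, (∃ g : G, (y : G) = g * x * g⁻¹) → y ∈ H := by
    rintro y ⟨g, hg⟩
    obtain ⟨⟨v, h⟩, hvh⟩ := hH.2 y
    have hvh' : (v : N) * h = y := hvh
    have hc : Commute (v : N) (h : N) := by
      apply Subtype.ext
      exact (mem_centralizer_iff.1 (hcen (h : N).2) _ (mem_subgroupOf.1 v.2))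
    have h1 : (h : N) ^ Nat.card H = 1 := by
      have := pow_card_eq_one' (x := h)
      exact congrArg Subtype.val this
    have h2 : (v : N) ^ (Nat.card H * orderOf y) = 1 := by
      have h3 : y ^ (Nat.card H * orderOf y) = 1 := by rw [mul_comm, pow_mul, pow_orderOf_eq_one, one_pow]
      rw [← hvh', hc.mul_pow, pow_mul (h : N), h1, one_pow, mul_one] at h3
      rwa [hvh'] at h3
    have h3 : ¬ p ∣ Nat.card H * orderOf y := by
      intro hd
      rcases (hp.dvd_mul).1 hd with h4 | h4
      · rw [← hH.symm.index_eq_card, hidx] at h4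
        exact hpπ (hbar p hp h4)
      · refine hpd _ (hx g g) (h4.trans ?_)
        rw [← Subgroup.orderOf_coe, hg]
        exact Subgroup.orderOf_dvd_natCard _ (subset_closure (by simp))
    obtain ⟨k, hk⟩ := hVp ⟨((v : N) : G), mem_subgroupOf.1 v.2⟩
    have h4 : (v : N) ^ p ^ k = 1 := Subtype.ext (congrArg (Subtype.val : V → G) hk)
    have h5 : orderOf (v : N) = 1 := Nat.eq_one_of_dvd_coprimes (Nat.Coprime.pow_left k
      ((Nat.Prime.coprime_iff_not_dvd hp).2 h3)) (orderOf_dvd_of_pow_eq_one h4) (orderOf_dvd_of_pow_eq_one h2)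
    rw [orderOf_eq_one_iff] at h5
    rw [← hvh', h5, one_mul]
    exact h.2
  have hNH : N ≤ H.map N.subtype := by
    show closure (Group.conjugatesOfSet ({x} : Set G)) ≤ _
    rw [closure_le]
    intro y hy
    obtain ⟨a, ha, hay⟩ := Group.mem_conjugatesOfSet_iff.1 hy
    rw [Set.mem_singleton_iff] at ha
    rw [ha] at hay
    obtain ⟨g, hg⟩ := isConj_iff.1 hay
    exact ⟨⟨y, Subgroup.conjugatesOfSet_subset_normalClosure hy⟩, hkey _ ⟨g, hg.symm⟩, rfl⟩
  apply hV1
  rw [eq_bot_iff]
  intro v hv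
  obtain ⟨h, hh, e⟩ := hNH (hVN hv)
  have h1 : h ∈ V.subgroupOf N ⊓ H := ⟨mem_subgroupOf.2 (by rw [← e] at hv; exact hv), hh⟩
  rw [hH.disjoint.eq_bot, mem_bot] at h1
  rw [mem_bot, ← e, h1]
  rfl

/-- if `V` is a normal π-subgroup and the image of `x` in `G/V` lies in a normal π-subgroup then so does `x` -/
theorem step_pi {x : G} {V : Subgroup G} [hVn : V.Normal] (hV : IsPiSubgroup π V)
    (hVN : V ≤ normalClosure ({x} : Set G))
    (hbar : IsPiSubgroup π ((normalClosure ({x} : Set G)).map (QuotientGroup.mk' V))) :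
    IsPiSubgroup π (normalClosure ({x} : Set G)) := by
  set N := normalClosure ({x} : Set G) with hN
  have hcV : Nat.card (V.subgroupOf N) = Nat.card V := Nat.card_congr (subgroupOfEquivOfLe hVN).toEquiv
  have hidx : (V.subgroupOf N).index = Nat.card (N.map (QuotientGroup.mk' V)) := by
    have h1 : ((QuotientGroup.mk' V).subgroupMap N).ker = V.subgroupOf N := by
      ext y
      rw [MonoidHom.mem_ker, mem_subgroupOf, ← QuotientGroup.eq_one_iff (N := V) (y : G)]
      exact ⟨fun h => congrArg Subtype.val h, fun h => Subtype.ext h⟩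
    rw [← h1, Subgroup.index_ker, MonoidHom.range_eq_top.2 ((QuotientGroup.mk' V).subgroupMap_surjective N),
      Subgroup.card_top]
  have hcN : Nat.card N = Nat.card V * Nat.card (N.map (QuotientGroup.mk' V)) := by
    rw [← hidx, ← hcV, Subgroup.card_mul_index]
  intro q hq hd
  rw [hcN] at hd
  rcases (hq.dvd_mul).1 hd with h1 | h1
  · exact hV q hq h1
  · exact hbar q hq h1

/-- a power of `x` of prime order modulo a subgroup -/
theorem exists_pow_prime {x : G} {C : Subgroup G} (hx : x ∉ C) :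
    ∃ (k l : ℕ), l.Prime ∧ x ^ k ∉ C ∧ (x ^ k) ^ l ∈ C := by
  classical
  have h0 : ∃ n : ℕ, 0 < n ∧ x ^ n ∈ C := ⟨orderOf x, orderOf_pos x, by rw [pow_orderOf_eq_one]; exact one_mem C⟩
  set n := Nat.find h0 with hn
  have hn0 := (Nat.find_spec h0).1
  have hnC := (Nat.find_spec h0).2
  have hn1 : n ≠ 1 := by
    intro h1
    rw [← hn, h1, pow_one] at hnC
    exact hx hnC
  obtain ⟨l, hl, k, hk⟩ := Nat.exists_prime_and_dvd hn1
  refine ⟨k, l, hl, fun hC => ?_, ?_⟩
  · have hk0 : 0 < k := by
      rcases Nat.eq_zero_or_pos k with h | h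
      · rw [h, mul_zero] at hk
        omega
      · exact h
    have h2 : n ≤ k := Nat.find_min' h0 ⟨hk0, hC⟩
    have := hl.two_le
    nlinarith
  · rw [← pow_mul, mul_comm, ← hk]
    exact hnC

/-- `y` normalises every simple factor of a minimal normal subgroup that is not a π-group -/
theorem norm_factor {N : Subgroup G} [N.Normal] (hI : sSupIndep (minSet N)) {y : G} (hy : Pairs π y)
    {T : Subgroup G} (hT : T ∈ minSet N) (hTp : ¬ IsPiSubgroup π T) : T.map (MulAut.conj y).toMonoidHom = T := by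
  by_contra hne
  simp only [IsPiSubgroup, not_forall] at hTp
  obtain ⟨t, ht, htd, htp⟩ := hTp
  have htf : Fact t.Prime := ⟨ht⟩
  obtain ⟨g, hg⟩ := exists_prime_orderOf_dvd_card' t htd
  have hT' := map_conj_mem_minSet hT y
  have hcom : ∀ a ∈ T.map (MulAut.conj y).toMonoidHom, ∀ b ∈ T, Commute a b := fun a ha b hb =>
    commute_of_mem hI (fun _ hS => hS.2.2.1) (fun _ hS => hS.1) hT' hT hne ha hb
  have ha : y * g * y⁻¹ ∈ T.map (MulAut.conj y).toMonoidHom := ⟨g, g.2, rfl⟩
  have hc := hcom _ ha (g : G)⁻¹ (inv_mem g.2)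
  -- the element `y g y⁻¹ g⁻¹`
  have hdis : Disjoint (T.map (MulAut.conj y).toMonoidHom) T := by
    have h1 := hI hT'
    have h2 : T ≤ sSup (minSet N \ {T.map (MulAut.conj y).toMonoidHom}) :=
      le_sSup (Set.mem_sdiff_singleton.2 ⟨hT, fun h => hne h.symm⟩)
    exact h1.mono_right h2
  have hgt : (g : G) ^ t = 1 := by
    have := congrArg (Subtype.val : T → G) (hg ▸ pow_orderOf_eq_one g)
    simpa using this
  have hw : (y * g * y⁻¹ * (g : G)⁻¹) ^ t = 1 := by
    rw [hc.mul_pow, conj_pow, inv_pow, hgt]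
    group
  have hw1 : y * g * y⁻¹ * (g : G)⁻¹ ≠ 1 := by
    intro h1
    have h2 : y * g * y⁻¹ = g := mul_inv_eq_one.1 h1
    have h3 : (g : G) ∈ (T.map (MulAut.conj y).toMonoidHom) ⊓ T := ⟨h2 ▸ ha, g.2⟩
    rw [hdis.eq_bot, mem_bot] at h3
    have h4 : g = 1 := Subtype.ext h3
    rw [h4, orderOf_one] at hg
    exact ht.one_lt.ne hg
  have hord : orderOf (y * g * y⁻¹ * (g : G)⁻¹) = t := orderOf_eq_prime hw hw1
  have hmem : y * g * y⁻¹ * (g : G)⁻¹ ∈ closure ({1 * y * 1⁻¹, (g : G) * y * (g : G)⁻¹} : Set G) := by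
    have h2 := inv_mem (subset_closure (show (g : G) * y * (g : G)⁻¹ ∈
      ({1 * y * 1⁻¹, (g : G) * y * (g : G)⁻¹} : Set G) by simp))
    have h3 := mul_mem (subset_closure (show 1 * y * 1⁻¹ ∈
      ({1 * y * 1⁻¹, (g : G) * y * (g : G)⁻¹} : Set G) by simp)) h2
    convert h3 using 1
    group
  have h5 := Subgroup.orderOf_dvd_natCard _ hmem
  rw [hord] at h5
  exact htp (hy 1 g t ht h5)

/-- **The reduction.** -/
theorem reduce {π : Set ℕ} (rows : ∀ (S : Type u) [Group S] [Finite S] [IsSimpleGroup S], ¬ IsMulCommutative S → Row π S)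
    (G : Type u) [Group G] [Finite G] (hD : DPi π G) (x : G) (hx : Pairs π x) :
    IsPiSubgroup π (normalClosure ({x} : Set G)) := by
  induction hn : Nat.card G using Nat.strong_induction_on generalizing G with
  | _ n ih =>
  subst hn
  set L := normalClosure ({x} : Set G) with hL
  have hLn : L.Normal := normalClosure_normal
  have hxL : x ∈ L := subset_normalClosure rfl
  by_cases hL1 : L = ⊥
  · intro p hp hd
    rw [hL1, card_bot] at hd
    exact absurd (Nat.dvd_one.1 hd) hp.one_lt.ne'
  -- a minimal normal subgroup in `L`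
  have hfin : {M : Subgroup G | M.Normal ∧ M ≠ ⊥ ∧ M ≤ L}.Finite := Set.toFinite _
  obtain ⟨V, ⟨hVn, hV0, hVL⟩, hVmin⟩ := hfin.exists_minimal ⟨L, hLn, hL1, le_rfl⟩
  have hmin : ∀ M : Subgroup G, M.Normal → M ≤ V → M = ⊥ ∨ M = V := by
    intro M hM hMV
    by_cases hM0 : M = ⊥
    · exact Or.inl hM0
    · exact Or.inr (le_antisymm hMV (hVmin ⟨hM, hM0, hMV.trans hVL⟩ hMV))
  -- the quotient
  have hcard : Nat.card (G ⧸ V) < Nat.card G := by
    have h3 := Subgroup.card_eq_card_quotient_mul_card_subgroup V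
    have h4 : 1 < Nat.card V := (Subgroup.one_lt_card_iff_ne_bot V).mpr hV0
    have h5 : 0 < Nat.card (G ⧸ V) := Nat.card_pos
    nlinarith
  have hf := QuotientGroup.mk'_surjective V
  have hNC : normalClosure ({QuotientGroup.mk' V x} : Set (G ⧸ V)) = L.map (QuotientGroup.mk' V) := by
    rw [hL, Subgroup.map_normalClosure _ _ hf, Set.image_singleton]
  have hbar : IsPiSubgroup π (L.map (QuotientGroup.mk' V)) := by
    rw [← hNC]
    exact ih _ hcard (G ⧸ V) (DPi_quotient hD V) _ (hx.map hf) rfl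
  by_cases hVpi : IsPiSubgroup π V
  · exact step_pi hVpi hVL hbar
  exfalso
  by_cases hab : ∀ x ∈ V, ∀ y ∈ V, Commute x y
  · obtain ⟨p, hp, hpV, -⟩ := abelian_structure V hV0 hmin hab
    refine step_abelian hx hp ?_ hV0 hVL hpV hbar
    intro hpπ
    apply hVpi
    intro q hq hd
    have : Fact p.Prime := ⟨hp⟩
    obtain ⟨k, hk⟩ := IsPGroup.iff_card.1 hpV
    rw [hk] at hd
    rwa [(Nat.prime_dvd_prime_iff_eq hq hp).1 (hq.dvd_of_dvd_pow hd)]
  obtain ⟨hne, hI, hsup, hsimp, hcent, hconj⟩ := nonabelian_structure V hmin hab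
  -- no factor is a π-group
  have hfac : ∀ T ∈ minSet V, ¬ IsPiSubgroup π T := by
    intro T hT hTpi
    apply hVpi
    have hfinS : Finite (minSet V) := Set.toFinite (minSet V) |>.to_subtype
    cases nonempty_fintype (minSet V)
    have h1 := card_iSup (minSet_comm hI) (minSet_indep hI)
    rw [minSet_iSup hsup, finprod_eq_prod_of_fintype] at h1
    intro p hp hd
    rw [h1] at hd
    obtain ⟨i, -, hi⟩ := (Prime.dvd_finsetProd_iff hp.prime _).1 hd
    obtain ⟨g, hg⟩ := hconj T hT i i.2
    rw [hg, Subgroup.card_map_of_injective (f := (MulAut.conj g).toMonoidHom) (MulAut.conj g).injective] at hi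
    exact hTpi p hp hi
  -- `x` does not centralise `V`
  set C := centralizer (V : Set G) with hC
  have hxC : x ∉ C := by
    intro hxC
    have hLC : L ≤ C := by
      have : C.Normal := by rw [hC]; infer_instance
      refine normalClosure_le_normal ?_
      rwa [Set.singleton_subset_iff]
    apply hab
    intro a ha b hb
    exact (mem_centralizer_iff.1 (hLC (hVL hb)) a ha)
  obtain ⟨k, l, hl, hk1, hk2⟩ := exists_pow_prime hxC
  set y := x ^ k with hy
  have hpy : Pairs π y := hx.pow k
  -- a factor on which `y` acts nontrivially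
  obtain ⟨S, hS, hyS⟩ : ∃ S ∈ minSet V, ¬ ∀ s ∈ S, y * s = s * y := by
    by_contra hcon
    push Not at hcon
    apply hk1
    rw [hC, mem_centralizer_iff]
    have h1 : V ≤ centralizer {y} := by
      rw [← hsup]
      refine sSup_le fun T hT t ht => ?_
      rw [mem_centralizer_singleton_iff]
      exact (hcon T hT t ht).symm
    intro v hv
    have h2 := h1 hv
    rw [mem_centralizer_singleton_iff] at h2
    exact h2
  have hyn : y ∈ normalizer (S : Set G) := by
    have h1 := norm_factor hI hpy hS (hfac S hS)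
    rw [mem_normalizer_iff]
    intro s
    constructor
    · intro hs
      rw [← h1]
      exact ⟨s, hs, rfl⟩
    · intro hs
      rw [← h1] at hs
      obtain ⟨s', hs', e⟩ := hs
      have : s' = s := by
        have e' : y * s' * y⁻¹ = y * s * y⁻¹ := e
        simpa using e'
      rwa [← this]
  have hSV : S ≤ V := hS.1
  have hord : orderOf (S.normalizerMonoidHom ⟨y, hyn⟩) = l := by
    have : Fact l.Prime := ⟨hl⟩
    refine orderOf_eq_prime ?_ ?_
    · rw [← map_pow]
      ext s
      rw [norm_apply]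
      show y ^ l * s * (y ^ l)⁻¹ = s
      have h1 := mem_centralizer_iff.1 hk2 s (hSV s.2)
      rw [← h1]
      group
    · intro h1
      apply hyS
      intro s hs
      have h2 : y * s * y⁻¹ = s := by
        have := congrArg (Subtype.val : S → G) (DFunLike.congr_fun h1 (⟨s, hs⟩ : S))
        exact this
      calc y * s = (y * s * y⁻¹) * y := by group
        _ = s * y := by rw [h2]
  obtain ⟨M0, hM0⟩ := hD
  have hyp := hyp_of_factor hI hsup hconj hM0 hS hyn hpy hl hord
  have hSs : IsSimpleGroup S := hsimp S hS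
  have hSna : ¬ IsMulCommutative S := by
    intro hc
    obtain ⟨z, hz⟩ := exists_ne (1 : S)
    apply hz
    refine Subtype.ext (hcent S hS z z.2 fun t ht => ?_)
    exact congrArg Subtype.val (hc.is_comm.comm z ⟨t, ht⟩)
  exact hfac S hS (rows S hSna _ _ _ hyp)

end Cfsg.Agent.H469.PiBS
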